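import Cfsg.Agent.H2.Rs.CaseB
import Cfsg.Agent.H951.Rs.FullP
import Cfsg.Agent.H884.ElNum

/-!
# S3691, `PSp_{2m}(q)`, `m ≥ 5`: one factor induces everything on `S^⊥ / S` (helper2)

* `no_full_of` : contradiction, given the theorem `Full.fpf` (helper242).
-/

set_option autoImplicit false
set_option linter.unusedSectionVars false

open Subgroup Cfsg

namespace Cfsg.Agent.H2.Rs

open Module Cfsg.Agent.H925.Rs Cfsg.Agent.H951.Rs Cfsg.Agent.H997.Rg Cfsg.Agent.H884.El

universe v w

variable {F : Type v} [Field F] {V : Type w} [AddCommGroup V] [Module F V] {B : LinearMap.BilinForm F V} {p f m : ℕ}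
  {A C : Subgroup (V ≃ₗ[F] V)} {S : Submodule F V}

theorem charP_of (hp : p.Prime) (hf : 1 ≤ f) (hF : Nat.card F = p ^ f) : CharP F p := by
  have hfF : Finite F := Nat.finite_of_card_ne_zero (by rw [hF]; exact pow_ne_zero _ hp.ne_zero)
  have := Fintype.ofFinite F
  obtain ⟨r, hr⟩ := CharP.exists F
  obtain ⟨k, hrp, hk⟩ := FiniteField.card F r
  have h1 : r ∣ p ^ f := by rw [← hF, Nat.card_eq_fintype_card, hk]; exact dvd_pow_self r k.pos.ne'
  have h2 := (Nat.prime_dvd_prime_iff_eq hrp hp).1 (hrp.dvd_of_dvd_pow h1)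
  rwa [← h2]

/-- the representation of a group of linear maps -/
def rep (A : Subgroup (V ≃ₗ[F] V)) : A →* Module.End F V where
  toFun g := ((g : V ≃ₗ[F] V) : V →ₗ[F] V)
  map_one' := rfl
  map_mul' _ _ := rfl

theorem rep_apply (g : A) (v : V) : rep A g v = (g : V ≃ₗ[F] V) v := rfl

theorem rep_inj : Function.Injective (rep A) := by
  intro a b h
  apply Subtype.ext
  apply LinearEquiv.ext
  intro v
  exact LinearMap.congr_fun h v

theorem fpf_rep (h : ∀ z ∈ A, ∀ t : ℕ, t.Prime → t ≠ p → z ^ t = 1 → z ≠ 1 → ∀ v, z v = v → v = 0) : Fpf p (rep A) := by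
  intro g hg hgp v hv
  have h1 : (g : V ≃ₗ[F] V) ^ orderOf g = 1 := by
    have := congrArg Subtype.val (pow_orderOf_eq_one g)
    exact this
  refine h g g.2 (orderOf g) hg hgp h1 ?_ v hv
  intro h2
  have h3 : g = 1 := Subtype.ext h2
  rw [h3, orderOf_one] at hg
  exact Nat.not_prime_one hg

/-- `v_p(2 m) + v_p(f) < (m - 2) f` -/
theorem val_bound (hp : p.Prime) (hm : 5 ≤ m) (hf : 1 ≤ f) :
    (2 * m).factorization p + f.factorization p < (m - 2) * f := by
  have h1 : f.factorization p < f := Nat.factorization_lt p (by omega)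
  have h2 : (2 * m).factorization p ≤ m - 3 := by
    have h3 : 2 ^ (2 * m).factorization p ≤ 2 * m :=
      (Nat.pow_le_pow_left hp.two_le _).trans (Nat.ordProj_le p (by omega))
    have h4 : ∀ k : ℕ, 8 ≤ k → 2 * k < 2 ^ (k - 2) := by
      intro k hk
      induction k, hk using Nat.le_induction with
      | base => norm_num
      | succ n hn ih =>
        have h5 : n + 1 - 2 = (n - 2) + 1 := by omega
        rw [h5, pow_succ]
        omega
    by_cases h8 : 8 ≤ m
    · by_contra hcon
      have h5 : 2 ^ (m - 2) ≤ 2 ^ (2 * m).factorization p := Nat.pow_le_pow_right (by norm_num) (by omega)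
      have := h4 m h8
      omega
    · have hmm : m = 5 ∨ m = 6 ∨ m = 7 := by omega
      by_contra hcon
      have hd : p ^ (m - 2) ∣ 2 * m :=
        (pow_dvd_pow p (by omega)).trans (Nat.ordProj_dvd (2 * m) p)
      have hp2 := hp.two_le
      rcases hmm with rfl | rfl | rfl
      · have h5 : p ^ 3 ≤ 10 := Nat.le_of_dvd (by norm_num) hd
        have h6 : p = 2 := by
          by_contra h7
          have : 3 ^ 3 ≤ p ^ 3 := Nat.pow_le_pow_left (by omega) 3
          omega
        subst h6
        exact absurd hd (by norm_num)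
      · have h5 : p ^ 4 ≤ 12 := Nat.le_of_dvd (by norm_num) hd
        have : 2 ^ 4 ≤ p ^ 4 := Nat.pow_le_pow_left (by omega) 4
        omega
      · have h5 : p ^ 5 ≤ 14 := Nat.le_of_dvd (by norm_num) hd
        have : 2 ^ 5 ≤ p ^ 5 := Nat.pow_le_pow_left (by omega) 5
        omega
  obtain ⟨n, rfl⟩ : ∃ n, m = n + 3 := ⟨m - 3, by omega⟩
  have h3 : n ≤ n * f := Nat.le_mul_of_pos_right n hf
  have h4 : (n + 3 - 2) * f = n * f + f := by
    rw [show n + 3 - 2 = n + 1 by omega]
    ring
  rw [h4]
  omega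

/-- **No full factor**, from `Full.fpf`. -/
theorem no_full_of (hJ : OutJ1.{w}) (P : Pair B p f m A C) (hm : 5 ≤ m) (hS : Full B C S)
    (hfpf : ∀ z ∈ A, ∀ t : ℕ, t.Prime → t ≠ p → z ^ t = 1 → z ≠ 1 → ∀ v, z v = v → v = 0)
    {r r' : ℕ} (hr : PP p (f * (2 * m)) r) (hrA : r ∣ Nat.card A) (hr' : PP p (f * m) r') (hr'A : r' ∣ Nat.card A)
    (hbig : (∃ a, 4 * m + 1 < r ^ a ∧ r ^ a ∣ Nat.card A) ∨ 4 * m + 1 < r' ∨ (r = 41 ∧ r' = 11)) : False := by
  have hp := P.prime
  have hf := P.hf
  have hfp : Fact p.Prime := ⟨hp⟩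
  have hfF : Finite F := Nat.finite_of_card_ne_zero (by rw [P.card]; exact pow_ne_zero _ hp.ne_zero)
  have hfd : FiniteDimensional F V := FiniteDimensional.of_finrank_pos (by rw [P.dim]; omega)
  have hfV : Finite V := Module.finite_of_finite F
  have hfE : Finite (V ≃ₗ[F] V) := DFunLike.finite _
  have hnt : Nontrivial V := Module.nontrivial_of_finrank_pos (R := F) (by rw [P.dim]; omega)
  have hch : CharP F p := charP_of hp hf P.card
  have h := fpf_rep (p := p) hfpf
  have hfm : 5 * f ≤ f * m := by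
    rw [mul_comm 5]
    exact Nat.mul_le_mul le_rfl hm
  have ha : orderOf (p : ZMod r) = 2 * (f * m) := by rw [hr.ord]; ring
  have hrp := ne_of_ord hr.prime ha (by omega)
  have hr11 : 2 * (f * m) + 1 ≤ r := by
    have h1 := Nat.le_of_dvd (by have := hr.prime.two_le; omega) (ord_dvd_sub hr.prime ha (by omega))
    omega
  obtain ⟨hd1, hd2⟩ := H951.Rs.Full.dich P hm hS
  have hcd := H951.Rs.Full.card_dvd P (by omega) hS
  rcases hd1 with hd1 | hd1
  · -- large `p`-part
    have hvb := val_bound (p := p) (m := m) (f := f) hp hm hf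
    have hmain : (2 * m).factorization p + f * m < (Nat.card A).factorization p := by
      have e1 : (2 * m - 2) * f = (m - 2) * f + f * m := by
        obtain ⟨n, rfl⟩ : ∃ n, m = n + 2 := ⟨m - 2, by omega⟩
        rw [show 2 * (n + 2) - 2 = 2 * n + 2 by omega, show n + 2 - 2 = n by omega]
        ring
      omega
    have hvr : (Nat.card A).factorization p < r := by
      have e1 : (2 * m - 1) * f ≤ 2 * (f * m) := by
        calc (2 * m - 1) * f ≤ (2 * m) * f := Nat.mul_le_mul (by omega) le_rfl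
          _ = 2 * (f * m) := by ring
      omega
    have hpow : p ^ ((2 * m).factorization p + f * m + 1) ≤ p ^ (Nat.card A).factorization p :=
      Nat.pow_le_pow_right hp.pos hmain
    have hpow' : p ^ ((2 * m).factorization p + f * m + 1) = p ^ (2 * m).factorization p * p ^ (f * m + 1) := by
      rw [add_assoc, pow_add]
    have h0 : 0 < p ^ (2 * m).factorization p := pow_pos hp.pos _
    have h64 : 4 * m + 2 < p ^ (f * m + 1) := by
      have h4 : ∀ k : ℕ, 5 ≤ k → 4 * k + 2 < 2 ^ (k + 1) := by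
        intro k hk
        induction k, hk using Nat.le_induction with
        | base => norm_num
        | succ n hn ih =>
          rw [pow_succ 2 (n + 1)]
          omega
      have h5 : 2 ^ (m + 1) ≤ p ^ (f * m + 1) :=
        (Nat.pow_le_pow_left hp.two_le _).trans
          (Nat.pow_le_pow_right hp.pos (by have := Nat.le_mul_of_pos_left m hf; omega))
      exact (h4 m hm).trans_le h5
    -- the `p'`-part
    have hK0 : Nat.card A ≠ 0 := Nat.card_pos.ne'
    have hM : Nat.card A / p ^ (Nat.card A).factorization p ∣ 2 * (p ^ (2 * (f * m)) - 1) := by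
      have h1 : Nat.Coprime (Nat.card A / p ^ (Nat.card A).factorization p) p :=
        (Nat.coprime_ordCompl hp hK0).symm
      have h2 : Nat.card A / p ^ (Nat.card A).factorization p ∣
          p ^ (f * (2 * m - 1)) * (2 * (p ^ (2 * (f * m)) - 1)) := by
        refine (Nat.ordCompl_dvd (Nat.card A) p).trans (hcd.trans ?_)
        rw [← pow_mul, ← pow_mul]
        exact ⟨1, by ring_nf⟩
      exact (Nat.Coprime.pow_right _ h1).dvd_of_dvd_mul_left h2
    have hpe : 1 ≤ p ^ (2 * (f * m)) := Nat.one_le_pow _ _ hp.pos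
    have hpe2 : p ≤ p ^ (2 * (f * m)) := Nat.le_self_pow (by omega) p
    have hMle : Nat.card A / p ^ (Nat.card A).factorization p ≤ 2 * (p ^ (2 * (f * m)) - 1) :=
      Nat.le_of_dvd (by have := hp.two_le; omega) hM
    refine res_irr hJ (rep A) rep_inj hp h hr.prime (by omega) hrp ?_ hrA hvr ?_ ?_ ?_ ?_ ?_
    · rw [P.card, Nat.cast_pow, orderOf_pow' _ (by omega), ha, P.dim]
      have h1 : Nat.gcd (2 * (f * m)) f = f := Nat.gcd_eq_right ⟨2 * m, by ring⟩
      rw [h1, show 2 * (f * m) = 2 * m * f by ring, Nat.mul_div_cancel _ hf]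
    · rw [P.dim]
      omega
    · intro _
      rw [P.dim]
      refine lt_of_lt_of_le ?_ hpow
      rw [hpow']
      exact Nat.mul_lt_mul_of_pos_left (by omega) h0
    · intro _
      rw [P.dim]
      refine lt_of_lt_of_le ?_ hpow
      rw [hpow']
      exact Nat.mul_lt_mul_of_pos_left (by omega) h0
    · intro b hb1 hb2
      rw [P.dim]
      rw [← pow_mul] at hb1 hb2
      have h1 := (ord_dvd hp).1 hb1
      rw [ha, mul_comm b 2] at h1
      have h2 : f * m ∣ b := Nat.dvd_of_mul_dvd_mul_left two_pos h1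
      have h3 : b < 2 * (f * m) := by
        by_contra hcon
        have h4 : p ^ (2 * (2 * (f * m))) ≤ p ^ (b * 2) := Nat.pow_le_pow_right hp.pos (by omega)
        have h5 : p ^ (2 * (2 * (f * m))) = p ^ (2 * (f * m)) * p ^ (2 * (f * m)) := by
          rw [← pow_add]; congr 1; ring
        have h6 : 2 ^ 10 ≤ p ^ (2 * (f * m)) :=
          (Nat.pow_le_pow_left hp.two_le 10).trans (Nat.pow_le_pow_right hp.pos (by omega))
        have h7 : 2 ^ 10 * p ^ (2 * (f * m)) ≤ p ^ (2 * (f * m)) * p ^ (2 * (f * m)) :=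
          Nat.mul_le_mul h6 le_rfl
        omega
      have h4 : b ≤ f * m := by
        obtain ⟨j, rfl⟩ := h2
        rcases Nat.lt_or_ge j 2 with hj | hj
        · calc f * m * j ≤ f * m * 1 := Nat.mul_le_mul le_rfl (by omega)
            _ = f * m := mul_one _
        · exfalso
          have : f * m * 2 ≤ f * m * j := Nat.mul_le_mul le_rfl hj
          omega
      omega
    · intro hp2 b hb1 hb2
      rw [P.dim]
      subst hp2
      have h1' : 1 ≤ 2 ^ b := Nat.one_le_two_pow
      rcases Nat.eq_zero_or_pos b with hb0 | hb0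
      · subst hb0
        omega
      have h1 : r ∣ 2 ^ (b * 4) - 1 := by
        have h0 : (2 ^ b) ^ 2 - 1 = (2 ^ b + 1) * (2 ^ b - 1) := by
          have := Nat.sq_sub_sq (2 ^ b) 1
          rwa [one_pow] at this
        have h0' : 2 ^ (b * 4) - 1 = ((2 ^ b) ^ 2 + 1) * ((2 ^ b) ^ 2 - 1) := by
          have := Nat.sq_sub_sq ((2 ^ b) ^ 2) 1
          rw [one_pow] at this
          rw [show b * 4 = b * 2 * 2 by ring, pow_mul, pow_mul, this]
        rw [h0', h0]
        exact hb1.trans ⟨2 ^ b + 1, by ring⟩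
      have h2 := (ord_dvd hp).1 h1
      rw [ha] at h2
      have h3 : f * m ∣ 2 * b := by
        obtain ⟨j, hj⟩ := h2
        exact ⟨j, by nlinarith⟩
      have h4 : 2 * b < 2 * (f * m) := by
        by_contra hcon
        have h5 : 2 ^ (2 * (f * m)) ≤ (2 ^ b) ^ 2 := by
          rw [← pow_mul]
          exact Nat.pow_le_pow_right (by norm_num) (by omega)
        have h6 : 2 ^ 5 ≤ 2 ^ b := Nat.pow_le_pow_right (by norm_num) (by omega)
        have h7 : (2 ^ (2 * (f * m)) + 1) * 31 ≤ ((2 ^ b) ^ 2 + 1) * (2 ^ b - 1) :=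
          Nat.mul_le_mul (by omega) (by omega)
        omega
      have h5 : 2 * b ≤ f * m := by
        obtain ⟨j, hj⟩ := h3
        rw [hj] at h4 ⊢
        rcases Nat.lt_or_ge j 2 with hj' | hj'
        · calc f * m * j ≤ f * m * 1 := Nat.mul_le_mul le_rfl (by omega)
            _ = f * m := mul_one _
        · exfalso
          have : f * m * 2 ≤ f * m * j := Nat.mul_le_mul le_rfl hj'
          omega
      omega
  · -- small `p`-part
    exact caseB hJ (rep A) rep_inj hp hf hm P.card P.dim h B P.alt P.nondeg (fun g u v => P.leA g.2 u v) hr.prime ha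
      hr'.prime hr'.ord hrA hr'A hd1 hbig

end Cfsg.Agent.H2.Rs
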